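import Mathlib
import Cfsg.Agent.Transfer.TausskyTwoGroup
import Cfsg.Agent.Lib.FrattiniPGroup
import Cfsg.Agent.Lib.FrattiniBasic
import Cfsg.Agent.SmallSimple.OrderEight
set_option linter.all false

-- part: H303/RuBase
section
set_option autoImplicit false
set_option linter.style.haveILetI false
set_option linter.unnecessarySimpa false

/-! Basic facts on finite 2-groups: normal subgroups and the upper central series, and the
embedding of an elementary abelian normal subgroup with at most two central elements in a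
permutation module. -/

namespace Cfsg.Agent.H303.RuBase

open Subgroup
open scoped commutatorElement Pointwise

variable {T : Type*} [Group T]

theorem index_le_of_fun {G : Type*} [Group G] {β : Type*} [Finite β] (H : Subgroup G)
    (f : G → β) (hf : ∀ a b : G, f a = f b → a⁻¹ * b ∈ H) : H.index ≤ Nat.card β := by
  have hinj : Function.Injective (fun q : G ⧸ H => f q.out) := by
    intro q q' h
    have h1 := hf _ _ h
    rw [← QuotientGroup.eq] at h1
    rwa [QuotientGroup.out_eq', QuotientGroup.out_eq'] at h1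
  exact Nat.card_le_card_of_injective _ hinj

theorem mem_upper_quot {j : ℕ} {x : T} :
    x ∈ Subgroup.upperCentralSeries T (j + 1) ↔
      (QuotientGroup.mk' (Subgroup.upperCentralSeries T j)) x ∈ center (T ⧸ Subgroup.upperCentralSeries T j) := by
  have h : Subgroup.upperCentralSeries T (j + 1) = (center (T ⧸ Subgroup.upperCentralSeries T j)).comap
      (QuotientGroup.mk' (Subgroup.upperCentralSeries T j)) :=
    Subgroup.upperCentralSeriesStep_eq_comap_center (Subgroup.upperCentralSeries T j)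
  rw [h, mem_comap]

theorem upper_le_succ (j : ℕ) : Subgroup.upperCentralSeries T j ≤ Subgroup.upperCentralSeries T (j + 1) :=
  Subgroup.upperCentralSeries_mono (G := T) (Nat.le_succ j)

/-- If the normal subgroup `N` is not in `Z_j`, then `N ∩ Z_{j+1}` is bigger than `N ∩ Z_j`. -/
theorem two_mul_card_le [Finite T] (hT : IsPGroup 2 T) (N : Subgroup T) [N.Normal] (j : ℕ)
    (h : ¬ N ≤ Subgroup.upperCentralSeries T j) :
    2 * Nat.card ↥(N ⊓ Subgroup.upperCentralSeries T j) ≤ Nat.card ↥(N ⊓ Subgroup.upperCentralSeries T (j + 1)) := by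
  have : Fact (Nat.Prime 2) := ⟨Nat.prime_two⟩
  set Z := Subgroup.upperCentralSeries T j with hZ
  have hN : N.map (QuotientGroup.mk' Z) ≠ ⊥ := by
    intro h0
    apply h
    rw [← QuotientGroup.ker_mk' Z]
    exact (Subgroup.map_eq_bot_iff N).1 h0
  have : (N.map (QuotientGroup.mk' Z)).Normal :=
    Subgroup.Normal.map inferInstance _ (QuotientGroup.mk'_surjective _)
  obtain ⟨z, hzN, hzc, hz1⟩ := Cfsg.Agent.Transfer.TausskyTwoGroup.exists_ne_one_mem_inf_center
    (hT.to_quotient Z) (N.map (QuotientGroup.mk' Z)) hN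
  obtain ⟨n, hn, rfl⟩ := Subgroup.mem_map.1 hzN
  have hn1 : n ∈ Subgroup.upperCentralSeries T (j + 1) := mem_upper_quot.2 hzc
  have hn2 : n ∉ Z := by
    intro h0
    exact hz1 ((QuotientGroup.eq_one_iff n).2 h0)
  have hlt : N ⊓ Z < N ⊓ Subgroup.upperCentralSeries T (j + 1) := by
    refine lt_of_le_of_ne (inf_le_inf_left _ (upper_le_succ j)) ?_
    intro he
    have : n ∈ N ⊓ Subgroup.upperCentralSeries T (j + 1) := ⟨hn, hn1⟩
    rw [← he] at this
    exact hn2 this.2
  have hdvd := Subgroup.card_dvd_of_le hlt.le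
  obtain ⟨m, hm⟩ := hdvd
  have hne : Nat.card ↥(N ⊓ Z) ≠ Nat.card ↥(N ⊓ Subgroup.upperCentralSeries T (j + 1)) := by
    intro he
    exact hlt.ne (Subgroup.eq_of_le_of_card_ge hlt.le he.ge)
  have hpos : 0 < Nat.card ↥(N ⊓ Subgroup.upperCentralSeries T (j + 1)) := Nat.card_pos
  rcases m with _ | _ | m
  · rw [Nat.mul_zero] at hm; omega
  · exact absurd (by simpa using hm.symm) hne
  · rw [hm]; nlinarith [Nat.zero_le (Nat.card ↥(N ⊓ Z) * m)]

/-- A normal subgroup `N` lies in `Z_j` or meets it in at least `2^j` elements. -/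
theorem le_or_card [Finite T] (hT : IsPGroup 2 T) (N : Subgroup T) [N.Normal] (j : ℕ) :
    N ≤ Subgroup.upperCentralSeries T j ∨ 2 ^ j ≤ Nat.card ↥(N ⊓ Subgroup.upperCentralSeries T j) := by
  induction j with
  | zero => right; simpa using Nat.card_pos (α := ↥(N ⊓ Subgroup.upperCentralSeries T 0))
  | succ j ih =>
    by_cases h : N ≤ Subgroup.upperCentralSeries T j
    · left; exact h.trans (upper_le_succ j)
    · right
      have h1 := ih.resolve_left h
      have h2 := two_mul_card_le hT N j h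
      calc 2 ^ (j + 1) = 2 * 2 ^ j := by ring
        _ ≤ 2 * Nat.card ↥(N ⊓ Subgroup.upperCentralSeries T j) := Nat.mul_le_mul_left _ h1
        _ ≤ _ := h2

/-- If `#T > 16` and `#Z_4 = 16` then `#Z_j = 2^j` for `j ≤ 4`. -/
theorem card_upper [Finite T] (hT : IsPGroup 2 T) (ha : 16 < Nat.card T)
    (hb : Nat.card ↥(Subgroup.upperCentralSeries T 4) = 16) :
    ∀ j ≤ 4, Nat.card ↥(Subgroup.upperCentralSeries T j) = 2 ^ j := by
  have hn : ∀ j ≤ 4, ¬ (⊤ : Subgroup T) ≤ Subgroup.upperCentralSeries T j := by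
    intro j hj h
    have h4 : Subgroup.upperCentralSeries T 4 = ⊤ :=
      top_le_iff.1 (h.trans (Subgroup.upperCentralSeries_mono (G := T) hj))
    rw [h4, Subgroup.card_top] at hb
    omega
  have key : ∀ j ≤ 4, 2 * Nat.card ↥(Subgroup.upperCentralSeries T j) ≤
      Nat.card ↥(Subgroup.upperCentralSeries T (j + 1)) := by
    intro j hj
    have := two_mul_card_le hT ⊤ j (hn j hj)
    simpa using this
  have h0 : Nat.card ↥(Subgroup.upperCentralSeries T 0) = 1 := by simp
  have k0 := key 0 (by norm_num)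
  have k1 := key 1 (by norm_num)
  have k2 := key 2 (by norm_num)
  have k3 := key 3 (by norm_num)
  simp only [zero_add, Nat.reduceAdd] at k0 k1 k2 k3
  intro j hj
  interval_cases j <;> omega

/-- A separating homomorphism to `ℤ/2`. -/
theorem exists_hom {E : Type*} [CommGroup E] (hE : ∀ x : E, x ^ 2 = 1) {c : E} (hc : c ≠ 1) :
    ∃ f : E →* Multiplicative (ZMod 2), f c ≠ 1 := by
  letI : Module (ZMod 2) (Additive E) := AddCommGroup.zmodModule (n := 2) (by
    intro x
    have := hE x.toMul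
    exact congrArg Additive.ofMul this)
  have hne : (Additive.ofMul c : Additive E) ≠ 0 := by
    intro h
    exact hc (Additive.ofMul.injective h)
  by_contra hcon
  push Not at hcon
  apply hne
  rw [← Module.forall_dual_apply_eq_zero_iff (ZMod 2)]
  intro φ
  have := hcon (AddMonoidHom.toMultiplicativeRight φ.toAddMonoidHom)
  exact congrArg Multiplicative.toAdd this

/-- `V` an elementary abelian normal subgroup of the 2-group `G` with at most two elements in the
centre of `G`: there is a homomorphism `lam : V → ℤ/2` all of whose conjugates have trivial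
common kernel. -/
theorem exists_functional {G : Type*} [Group G] [Finite G] (hG : IsPGroup 2 G) (V : Subgroup G)
    [hVn : V.Normal] (hV2 : ∀ x ∈ V, x ^ 2 = 1)
    (hc : Nat.card ↥(V ⊓ center G) ≤ 2) :
    ∃ lam : ↥V →* Multiplicative (ZMod 2), ∀ v : ↥V,
      (∀ g : G, lam ⟨g⁻¹ * v * g, by simpa using hVn.conj_mem v v.2 g⁻¹⟩ = 1) → v = 1 := by
  have : Fact (Nat.Prime 2) := ⟨Nat.prime_two⟩
  have hcomm : ∀ x y : ↥V, x * y = y * x := by
    intro x y
    apply Subtype.ext
    have h1 := hV2 _ (V.mul_mem x.2 y.2)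
    have hx := hV2 _ x.2
    have hy := hV2 _ y.2
    have e1 : (x : G) * y * (x * y) = 1 := by rw [← pow_two]; exact h1
    have hx' : (x : G) * x = 1 := by rw [← pow_two]; exact hx
    have hy' : (y : G) * y = 1 := by rw [← pow_two]; exact hy
    calc (x : G) * y = (x * x) * (y * x) * (y * y) * 1 * 1 := ?_
      _ = y * x := by rw [hx', hy']; group
    calc (x : G) * y = x * (x * y * (x * y)) * y := by rw [e1]; group
      _ = (x * x) * (y * x) * (y * y) * 1 * 1 := by group
  letI : CommGroup ↥V := { (inferInstance : Group ↥V) with mul_comm := hcomm }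
  by_cases hV : V = ⊥
  · refine ⟨1, fun v _ => ?_⟩
    apply Subtype.ext
    have := v.2
    simpa [hV] using this
  obtain ⟨c, hcV, hcc, hc1⟩ :=
    Cfsg.Agent.Transfer.TausskyTwoGroup.exists_ne_one_mem_inf_center hG V hV
  obtain ⟨lam, hlam⟩ := exists_hom (E := ↥V) (fun x => Subtype.ext (hV2 x x.2))
    (c := ⟨c, hcV⟩) (by intro h; exact hc1 (congrArg Subtype.val h))
  refine ⟨lam, ?_⟩
  -- the common kernel
  let N : Subgroup G :=
    { carrier := {x | ∃ hx : x ∈ V, ∀ g : G,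
        lam ⟨g⁻¹ * x * g, by simpa using hVn.conj_mem x hx g⁻¹⟩ = 1}
      one_mem' := by
        refine ⟨V.one_mem, fun g => ?_⟩
        have : (⟨g⁻¹ * 1 * g, by simpa using hVn.conj_mem 1 V.one_mem g⁻¹⟩ : ↥V) = 1 :=
          Subtype.ext (by simp)
        rw [this, map_one]
      mul_mem' := by
        rintro x y ⟨hx, hx'⟩ ⟨hy, hy'⟩
        refine ⟨V.mul_mem hx hy, fun g => ?_⟩
        have : (⟨g⁻¹ * (x * y) * g, by simpa using hVn.conj_mem _ (V.mul_mem hx hy) g⁻¹⟩ : ↥V) =
            ⟨g⁻¹ * x * g, by simpa using hVn.conj_mem x hx g⁻¹⟩ *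
              ⟨g⁻¹ * y * g, by simpa using hVn.conj_mem y hy g⁻¹⟩ := by
          apply Subtype.ext
          simp only [Subgroup.coe_mul]
          group
        rw [this, map_mul, hx', hy', one_mul]
      inv_mem' := by
        rintro x ⟨hx, hx'⟩
        refine ⟨V.inv_mem hx, fun g => ?_⟩
        have : (⟨g⁻¹ * x⁻¹ * g, by simpa using hVn.conj_mem _ (V.inv_mem hx) g⁻¹⟩ : ↥V) =
            (⟨g⁻¹ * x * g, by simpa using hVn.conj_mem x hx g⁻¹⟩)⁻¹ := by
          apply Subtype.ext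
          simp only [Subgroup.coe_inv]
          group
        rw [this, map_inv, hx', inv_one] }
  have hNn : N.Normal := by
    refine ⟨?_⟩
    rintro x ⟨hx, hx'⟩ g
    refine ⟨hVn.conj_mem x hx g, fun h => ?_⟩
    have := hx' (g⁻¹ * h)
    convert! this using 3
    group
  have hN : N = ⊥ := by
    by_contra hne
    obtain ⟨z, hz, hzc, hz1⟩ :=
      Cfsg.Agent.Transfer.TausskyTwoGroup.exists_ne_one_mem_inf_center hG N hne
    obtain ⟨hzV, hz'⟩ := hz
    have hzc' : z = c := by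
      by_contra hzc'
      have : 3 ≤ Nat.card ↥(V ⊓ center G) := by
        classical
        letI := Fintype.ofFinite ↥(V ⊓ center G)
        rw [Nat.card_eq_fintype_card]
        have hcard : ({1, ⟨c, hcV, hcc⟩, ⟨z, hzV, hzc⟩} : Finset ↥(V ⊓ center G)).card = 3 := by
          rw [Finset.card_eq_three]
          refine ⟨_, _, _, ?_, ?_, ?_, rfl⟩
          · intro h; exact hc1 (congrArg Subtype.val h).symm
          · intro h; exact hz1 (congrArg Subtype.val h).symm
          · intro h; exact hzc' (congrArg Subtype.val h).symm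
        rw [← hcard]
        exact Finset.card_le_univ _
      omega
    subst hzc'
    have := hz' 1
    apply hlam
    convert! this using 2
    apply Subtype.ext
    simp
  intro v hv
  have : (v : G) ∈ N := ⟨v.2, hv⟩
  rw [hN, Subgroup.mem_bot] at this
  exact Subtype.ext this

/-- The coordinate map `V → (G/K → ℤ/2)` attached to `lam`. -/
noncomputable def coord {G : Type*} [Group G] (V : Subgroup G) [hVn : V.Normal]
    (lam : ↥V →* Multiplicative (ZMod 2)) (v : ↥V) (g : G) : Multiplicative (ZMod 2) :=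
  lam ⟨g⁻¹ * v * g, by simpa using hVn.conj_mem v v.2 g⁻¹⟩

theorem coord_mul {G : Type*} [Group G] (V : Subgroup G) [hVn : V.Normal]
    (lam : ↥V →* Multiplicative (ZMod 2)) (v w : ↥V) (g : G) :
    coord V lam (v * w) g = coord V lam v g * coord V lam w g := by
  unfold coord
  rw [← map_mul]
  congr 1
  apply Subtype.ext
  simp only [Subgroup.coe_mul]
  group

theorem coord_conj {G : Type*} [Group G] (V : Subgroup G) [hVn : V.Normal]
    (lam : ↥V →* Multiplicative (ZMod 2)) (v : ↥V) (g h : G) :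
    coord V lam ⟨h * v * h⁻¹, hVn.conj_mem v v.2 h⟩ g = coord V lam v (h⁻¹ * g) := by
  unfold coord
  congr 1
  apply Subtype.ext
  simp only
  group

theorem coord_mul_right {G : Type*} [Group G] (V : Subgroup G) [hVn : V.Normal]
    (lam : ↥V →* Multiplicative (ZMod 2)) (v : ↥V) (g : G) {k : G}
    (hk : ∀ x ∈ V, k * x = x * k) :
    coord V lam v (g * k) = coord V lam v g := by
  unfold coord
  congr 1
  apply Subtype.ext
  have h1 : g⁻¹ * (v : G) * g ∈ V := by simpa using hVn.conj_mem v v.2 g⁻¹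
  have h2 := hk _ h1
  show (g * k)⁻¹ * (v : G) * (g * k) = g⁻¹ * v * g
  calc (g * k)⁻¹ * (v : G) * (g * k) = k⁻¹ * ((g⁻¹ * v * g) * k) := by group
    _ = k⁻¹ * (k * (g⁻¹ * v * g)) := by rw [h2]
    _ = g⁻¹ * v * g := by group

/-- The bound `|V| ≤ 2^|G:K|` when `K` centralises `V`. -/
theorem card_le_two_pow {G : Type*} [Group G] [Finite G] (hG : IsPGroup 2 G) (V K : Subgroup G)
    [hVn : V.Normal] (hV2 : ∀ x ∈ V, x ^ 2 = 1)
    (hK : ∀ k ∈ K, ∀ x ∈ V, k * x = x * k)
    (hc : Nat.card ↥(V ⊓ center G) ≤ 2) : Nat.card ↥V ≤ 2 ^ K.index := by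
  obtain ⟨lam, hlam⟩ := exists_functional hG V hV2 hc
  have hinj : Function.Injective (fun (v : ↥V) (q : G ⧸ K) => coord V lam v q.out) := by
    intro v w hvw
    have hall : ∀ g : G, coord V lam v g = coord V lam w g := by
      intro g
      have h1 := congrFun hvw (QuotientGroup.mk g)
      simp only at h1
      obtain ⟨k, hk⟩ := QuotientGroup.mk_out_eq_mul K g
      rw [hk, coord_mul_right V lam v g (hK _ k.2), coord_mul_right V lam w g (hK _ k.2)] at h1
      exact h1
    have h2 : v * w⁻¹ = 1 := by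
      apply hlam
      intro g
      have h3 := coord_mul V lam (v * w⁻¹) w g
      rw [inv_mul_cancel_right, hall g] at h3
      have h4 : coord V lam (v * w⁻¹) g = 1 := by
        have := h3.symm
        exact (mul_eq_right).1 this
      exact h4
    exact mul_inv_eq_one.1 h2
  have h1 := Nat.card_le_card_of_injective _ hinj
  have h2 : Nat.card (G ⧸ K → Multiplicative (ZMod 2)) = 2 ^ K.index := by
    rw [Nat.card_fun, Subgroup.index]
    congr 1
    simp
  rwa [h2] at h1

/-- When the bound is attained, `V` is generated by the conjugates of one element. -/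
theorem exists_generator {G : Type*} [Group G] [Finite G] (hG : IsPGroup 2 G) (V K : Subgroup G)
    [hVn : V.Normal] (hV2 : ∀ x ∈ V, x ^ 2 = 1)
    (hK : ∀ k ∈ K, ∀ x ∈ V, k * x = x * k)
    (hc : Nat.card ↥(V ⊓ center G) ≤ 2) (hcard : 2 ^ K.index ≤ Nat.card ↥V) :
    ∃ v₀ : ↥V, ∀ ψ : ↥V →* Multiplicative (ZMod 2),
      (∀ g : G, ψ ⟨g * v₀ * g⁻¹, hVn.conj_mem v₀ v₀.2 g⟩ = 1) → ∀ v, ψ v = 1 := by
  classical
  obtain ⟨lam, hlam⟩ := exists_functional hG V hV2 hc
  let Φ : ↥V →* (G ⧸ K → Multiplicative (ZMod 2)) :=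
    { toFun := fun v q => coord V lam v q.out
      map_one' := by
        funext q
        have h := coord_mul V lam 1 1 q.out
        rw [one_mul] at h
        exact (mul_eq_left.1 h.symm)
      map_mul' := fun v w => by
        funext q
        exact coord_mul V lam v w q.out }
  have hΦ : ∀ (v : ↥V) (g : G), Φ v (QuotientGroup.mk g) = coord V lam v g := by
    intro v g
    obtain ⟨k, hk⟩ := QuotientGroup.mk_out_eq_mul K g
    show coord V lam v (QuotientGroup.mk g : G ⧸ K).out = _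
    rw [hk, coord_mul_right V lam v g (hK _ k.2)]
  have hinj : Function.Injective Φ := by
    rw [injective_iff_map_eq_one]
    intro v hv
    apply hlam
    intro g
    have := congrFun hv (QuotientGroup.mk g)
    rw [hΦ] at this
    exact this
  have hcard' : Nat.card (G ⧸ K → Multiplicative (ZMod 2)) = 2 ^ K.index := by
    rw [Nat.card_fun, Subgroup.index]
    congr 1
    simp
  have hbij : Function.Bijective Φ := by
    rw [Nat.bijective_iff_injective_and_card]
    refine ⟨hinj, ?_⟩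
    apply le_antisymm
    · exact Nat.card_le_card_of_injective _ hinj
    · rw [hcard']; exact hcard
  let Ψ : ↥V ≃* (G ⧸ K → Multiplicative (ZMod 2)) := MulEquiv.ofBijective Φ hbij
  have hΨ : ∀ v, Ψ v = Φ v := fun v => rfl
  let v₀ := Ψ.symm (Pi.mulSingle (QuotientGroup.mk 1) (Multiplicative.ofAdd 1))
  have hv₀ : ∀ g : G, coord V lam v₀ g =
      if (QuotientGroup.mk g : G ⧸ K) = QuotientGroup.mk 1 then Multiplicative.ofAdd 1 else 1 := by
    intro g
    rw [← hΦ, ← hΨ, MulEquiv.apply_symm_apply]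
    rw [Pi.mulSingle_apply]
  refine ⟨v₀, fun ψ hψ => ?_⟩
  have hconj : ∀ g : G, Ψ ⟨g * v₀ * g⁻¹, hVn.conj_mem v₀ v₀.2 g⟩ =
      Pi.mulSingle (QuotientGroup.mk g) (Multiplicative.ofAdd 1) := by
    intro g
    funext q
    obtain ⟨k, rfl⟩ := QuotientGroup.mk_surjective q
    rw [hΨ, hΦ, coord_conj, hv₀, Pi.mulSingle_apply]
    congr 1
    apply propext
    rw [QuotientGroup.eq, QuotientGroup.eq]
    simp
  have hone : ψ.comp Ψ.symm.toMonoidHom = 1 := by
    apply MonoidHom.functions_ext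
    intro q m
    obtain ⟨g, rfl⟩ := QuotientGroup.mk_surjective q
    have hm : m = 1 ∨ m = Multiplicative.ofAdd 1 := by
      revert m; decide
    rcases hm with rfl | rfl
    · rw [Pi.mulSingle_one, map_one, map_one]
    · rw [← hconj g]
      show ψ (Ψ.symm (Ψ _)) = 1
      rw [MulEquiv.symm_apply_apply]
      exact hψ g
  intro v
  have := DFunLike.congr_fun hone (Ψ v)
  simpa using this

/-- A quadratic map on a group with values in `ℤ/2`, vanishing with its polar form on a normal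
subgroup `Q` of index at most 16, vanishes on a subgroup of index at most 8. -/
theorem exists_singular {Ω : Type*} [Group Ω] [Finite Ω] (Q : Subgroup Ω) [hQn : Q.Normal]
    (hQi : Q.index ≤ 16) (hQsq : ∀ x : Ω, x * x ∈ Q)
    (s : Ω → ZMod 2) (f : Ω → Ω → ZMod 2)
    (hf : ∀ x y z, f x (y * z) = f x y + f x z) (hs : ∀ x y, s (x * y) = s x + s y + f x y)
    (hff : ∀ x, f x x = 0) (hsym : ∀ x y, f x y = f y x)
    (hfQ : ∀ x, ∀ q ∈ Q, f x q = 0) (hsQ : ∀ q ∈ Q, s q = 0) :
    ∃ Y : Subgroup Ω, Y.index ≤ 8 ∧ ∀ y ∈ Y, s y = 0 := by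
  classical
  by_cases h8 : Q.index ≤ 8
  · exact ⟨Q, h8, hsQ⟩
  by_cases hex : ∃ y, y ∉ Q ∧ s y = 0
  · obtain ⟨y, hyQ, hy⟩ := hex
    refine ⟨Q ⊔ Subgroup.zpowers y, ?_, ?_⟩
    · have hle : Q ≤ Q ⊔ Subgroup.zpowers y := le_sup_left
      have h1 := Subgroup.relIndex_mul_index hle
      have h2 : Q.relIndex (Q ⊔ Subgroup.zpowers y) ≠ 1 := by
        intro h
        rw [Subgroup.relIndex_eq_one] at h
        exact hyQ (h (Subgroup.mem_sup_right (Subgroup.mem_zpowers y)))
      have h3 : Q.relIndex (Q ⊔ Subgroup.zpowers y) ≠ 0 :=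
        Subgroup.index_ne_zero_of_finite (H := Q.subgroupOf (Q ⊔ Subgroup.zpowers y))
      have h4 : 2 ≤ Q.relIndex (Q ⊔ Subgroup.zpowers y) := by omega
      have h5 := Nat.mul_le_mul_right (Q ⊔ Subgroup.zpowers y).index h4
      omega
    · have hfpow : ∀ x : Ω, ∀ n : ℕ, f x y = 0 → f x (y ^ n) = 0 := by
        intro x n hx
        induction n with
        | zero => rw [pow_zero]; exact hfQ x 1 Q.one_mem
        | succ n ih => rw [pow_succ, hf, ih, hx, add_zero]
      have hspow : ∀ n : ℕ, s (y ^ n) = 0 := by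
        intro n
        induction n with
        | zero => rw [pow_zero]; exact hsQ 1 Q.one_mem
        | succ n ih =>
          rw [pow_succ', hs, ih, hy, hfpow y n (hff y)]
          rfl
      intro x hx
      have hx' : x ∈ (Q : Set Ω) * (Subgroup.zpowers y : Set Ω) := by
        rw [← Subgroup.normal_mul]; exact hx
      obtain ⟨q, hq, w, hw, rfl⟩ := hx'
      obtain ⟨n, rfl⟩ : ∃ n : ℕ, y ^ n = w := by
        have := (mem_powers_iff_mem_zpowers).2 hw
        exact this
      show s (q * y ^ n) = 0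
      rw [hs, hsQ q hq, hspow n, hsym, hfQ _ q hq]
      rfl
  · push Not at hex
    exfalso
    have hone : ∀ y, y ∉ Q → s y = 1 := by
      intro y hy
      have h1 := hex y hy
      have : ∀ a : ZMod 2, a ≠ 0 → a = 1 := by decide
      exact this _ h1
    have hcard : 9 ≤ Nat.card (Ω ⧸ Q) := by
      have : Q.index = Nat.card (Ω ⧸ Q) := rfl
      omega
    have hsqE : ∀ a : Ω ⧸ Q, a * a = 1 := by
      intro a
      obtain ⟨x, rfl⟩ := QuotientGroup.mk_surjective a
      exact (QuotientGroup.eq_one_iff _).2 (hQsq x)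
    letI := Fintype.ofFinite (Ω ⧸ Q)
    rw [Nat.card_eq_fintype_card] at hcard
    have pick : ∀ F : Finset (Ω ⧸ Q), F.card ≤ 4 → ∃ a, a ∉ F := by
      intro F hF
      by_contra hcon
      push Not at hcon
      have : F = Finset.univ := Finset.eq_univ_iff_forall.2 hcon
      rw [this, Finset.card_univ] at hF
      omega
    obtain ⟨e1, he1⟩ := pick {1} (by simp)
    obtain ⟨e2, he2⟩ := pick {1, e1} ((Finset.card_le_two).trans (by norm_num))
    obtain ⟨e3, he3⟩ := pick {1, e1, e2, e1 * e2} Finset.card_le_four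
    simp only [Finset.mem_insert, Finset.mem_singleton, not_or] at he1 he2 he3
    obtain ⟨y1, rfl⟩ := QuotientGroup.mk_surjective e1
    obtain ⟨y2, rfl⟩ := QuotientGroup.mk_surjective e2
    obtain ⟨y3, rfl⟩ := QuotientGroup.mk_surjective e3
    have n1 : y1 ∉ Q := fun h => he1 ((QuotientGroup.eq_one_iff _).2 h)
    have n2 : y2 ∉ Q := fun h => he2.1 ((QuotientGroup.eq_one_iff _).2 h)
    have n3 : y3 ∉ Q := fun h => he3.1 ((QuotientGroup.eq_one_iff _).2 h)
    have inv_eq : ∀ a b : Ω ⧸ Q, a * b = 1 → b = a := by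
      intro a b hab
      have h1 := hsqE a
      exact mul_left_cancel (hab.trans h1.symm)
    have n12 : y1 * y2 ∉ Q := fun h => he2.2 (inv_eq _ _ ((QuotientGroup.eq_one_iff _).2 h))
    have n13 : y1 * y3 ∉ Q := fun h => he3.2.1 (inv_eq _ _ ((QuotientGroup.eq_one_iff _).2 h))
    have n23 : y2 * y3 ∉ Q := fun h => he3.2.2.1 (inv_eq _ _ ((QuotientGroup.eq_one_iff _).2 h))
    have n123 : y1 * (y2 * y3) ∉ Q := fun h => he3.2.2.2 (by
      have h1 : (y1 * y2 : Ω) * y3 ∈ Q := by rwa [mul_assoc]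
      have h2 := inv_eq ((y1 * y2 : Ω) : Ω ⧸ Q) (y3 : Ω ⧸ Q)
        ((QuotientGroup.eq_one_iff ((y1 * y2 : Ω) * y3)).2 h1)
      exact h2)
    have h12 := hs y1 y2
    have h13 := hs y1 y3
    have h23 := hs y2 y3
    have h123 := hs y1 (y2 * y3)
    rw [hf] at h123
    rw [hone _ n1, hone _ n2, hone _ n12] at h12
    rw [hone _ n1, hone _ n3, hone _ n13] at h13
    rw [hone _ n1, hone _ n23, hone _ n123] at h123
    have : ∀ a b : ZMod 2, 1 = 1 + 1 + a → 1 = 1 + 1 + b → 1 = 1 + 1 + (a + b) → False := by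
      decide
    exact this _ _ h12 h13 h123

end Cfsg.Agent.H303.RuBase
end

-- part: H303/RuMain
section
set_option autoImplicit false
set_option linter.style.haveILetI false
set_option linter.unnecessarySimpa false

/-! The 2-groups `T` of "Rudvalis type": `#T ≥ 2^14`, `#Z_4(T) = 16`, `W = C_T(Z_3(T))`,
`#Φ(W) ≤ 8` and `Φ(W)` in every subgroup of `W` of index at most 16. -/

namespace Cfsg.Agent.H303.RuMain

open Subgroup
open scoped commutatorElement

local notation "Zu" => Subgroup.upperCentralSeries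

variable {T : Type*} [Group T]

/-- The hypotheses. -/
structure Hyp (T : Type*) [Group T] (W : Subgroup T) : Prop where
  fin : Finite T
  two : IsPGroup 2 T
  ha : 2 ^ 14 ≤ Nat.card T
  hb : Nat.card ↥(Zu T 4) = 16
  hW : W = Subgroup.centralizer ((Zu T 3 : Subgroup T) : Set T)
  hc : Nat.card ↥(frattini ↥W) ≤ 8
  hd : ∀ U : Subgroup ↥W, U.index ≤ 16 → frattini ↥W ≤ U

namespace Hyp

variable {W : Subgroup T}

theorem cardZ (h : Hyp T W) : ∀ j ≤ 4, Nat.card ↥(Zu T j) = 2 ^ j := by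
  have := h.fin
  exact RuBase.card_upper h.two (by have := h.ha; omega) h.hb

theorem normalW (h : Hyp T W) : W.Normal := by
  rw [h.hW]; infer_instance

theorem mem_W (h : Hyp T W) {t : T} : t ∈ W ↔ ∀ z ∈ Zu T 3, z * t = t * z := by
  rw [h.hW, Subgroup.mem_centralizer_iff]
  rfl

/-- For subgroups `A ≤ B` with `#B = 2 #A`. -/
theorem mul_mem_of_card {G : Type*} [Group G] [Finite G] {A B : Subgroup G} (hAB : A ≤ B)
    (hc : Nat.card ↥B = 2 * Nat.card ↥A) {x y : G} (hx : x ∈ B) (hy : y ∈ B) :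
    x * y ∈ A ↔ (x ∈ A ↔ y ∈ A) := by
  have h2 : (A.subgroupOf B).index = 2 := by
    have h1 := (A.subgroupOf B).card_mul_index
    have h3 : Nat.card ↥(A.subgroupOf B) = Nat.card ↥A :=
      Nat.card_congr (Subgroup.subgroupOfEquivOfLe hAB).toEquiv
    rw [h3, hc] at h1
    have h4 : 0 < Nat.card ↥A := Nat.card_pos
    nlinarith
  have := Subgroup.mul_mem_iff_of_index_two h2 (a := ⟨x, hx⟩) (b := ⟨y, hy⟩)
  simpa [Subgroup.mem_subgroupOf] using this

theorem exists_y (h : Hyp T W) : ∃ y ∈ Zu T 3, y ∉ Zu T 2 := by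
  have := h.fin
  by_contra hcon
  push Not at hcon
  have h1 := Subgroup.card_le_of_le (show Zu T 3 ≤ Zu T 2 from fun y hy => hcon y hy)
  rw [h.cardZ 3 (by norm_num), h.cardZ 2 (by norm_num)] at h1
  norm_num at h1

theorem exists_u (h : Hyp T W) : ∃ u ∈ Zu T 2, u ∉ Zu T 1 := by
  have := h.fin
  by_contra hcon
  push Not at hcon
  have h1 := Subgroup.card_le_of_le (show Zu T 2 ≤ Zu T 1 from fun y hy => hcon y hy)
  rw [h.cardZ 2 (by norm_num), h.cardZ 1 (by norm_num)] at h1
  norm_num at h1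

theorem le32 : Zu T 2 ≤ Zu T 3 := RuBase.upper_le_succ 2
theorem le21 : Zu T 1 ≤ Zu T 2 := RuBase.upper_le_succ 1
theorem le43 : Zu T 3 ≤ Zu T 4 := RuBase.upper_le_succ 3

theorem mul3 (h : Hyp T W) {x y : T} (hx : x ∈ Zu T 3) (hy : y ∈ Zu T 3) :
    x * y ∈ Zu T 2 ↔ (x ∈ Zu T 2 ↔ y ∈ Zu T 2) := by
  have := h.fin
  exact mul_mem_of_card le32 (by rw [h.cardZ 3 (by norm_num), h.cardZ 2 (by norm_num)]; norm_num)
    hx hy

theorem mul2 (h : Hyp T W) {x y : T} (hx : x ∈ Zu T 2) (hy : y ∈ Zu T 2) :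
    x * y ∈ Zu T 1 ↔ (x ∈ Zu T 1 ↔ y ∈ Zu T 1) := by
  have := h.fin
  exact mul_mem_of_card le21 (by rw [h.cardZ 2 (by norm_num), h.cardZ 1 (by norm_num)]; norm_num)
    hx hy

theorem mem_Z1 {x : T} (hx : x ∈ Zu T 1) (t : T) : x * t = t * x := by
  rw [Subgroup.upperCentralSeries_one] at hx
  exact (Subgroup.mem_center_iff.1 hx t).symm

theorem comm_mem {j : ℕ} {x : T} (hx : x ∈ Zu T (j + 1)) (t : T) : ⁅x, t⁆ ∈ Zu T j :=
  Subgroup.mem_upperCentralSeries_succ_iff.1 hx t

/-- An element centralising `u ∈ Z_2 \ Z_1` centralises `Z_2`. -/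
theorem cent_Z2 (h : Hyp T W) {u t : T} (hu : u ∈ Zu T 2) (hu1 : u ∉ Zu T 1)
    (ht : u * t = t * u) {z : T} (hz : z ∈ Zu T 2) : z * t = t * z := by
  by_cases hz1 : z ∈ Zu T 1
  · exact mem_Z1 hz1 t
  · have h1 : u⁻¹ * z ∈ Zu T 1 := by
      rw [h.mul2 (inv_mem hu) hz, inv_mem_iff]
      exact iff_of_false hu1 hz1
    have h2 := mem_Z1 h1 t
    have h3 : z = u * (u⁻¹ * z) := by group
    calc z * t = u * ((u⁻¹ * z) * t) := by group
      _ = u * (t * (u⁻¹ * z)) := by rw [h2]
      _ = (u * t) * (u⁻¹ * z) := by group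
      _ = t * z := by rw [ht]; group

/-- An element centralising `Z_2` and `y ∈ Z_3 \ Z_2` centralises `Z_3`. -/
theorem cent_Z3 (h : Hyp T W) {y t : T} (hy : y ∈ Zu T 3) (hy1 : y ∉ Zu T 2)
    (ht : y * t = t * y) (ht2 : ∀ z ∈ Zu T 2, z * t = t * z) : t ∈ W := by
  rw [h.mem_W]
  intro z hz
  by_cases hz1 : z ∈ Zu T 2
  · exact ht2 z hz1
  · have h1 : y⁻¹ * z ∈ Zu T 2 := by
      rw [h.mul3 (inv_mem hy) hz, inv_mem_iff]
      exact iff_of_false hy1 hz1
    have h2 := ht2 _ h1
    calc z * t = y * ((y⁻¹ * z) * t) := by group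
      _ = y * (t * (y⁻¹ * z)) := by rw [h2]
      _ = (y * t) * (y⁻¹ * z) := by group
      _ = t * z := by rw [ht]; group

theorem conj_eq_of_comm_eq {y g k : T} (h : ⁅y, g⁆ = ⁅y, k⁆) :
    y * (g⁻¹ * k) = g⁻¹ * k * y := by
  have h1 : g * y⁻¹ * g⁻¹ = k * y⁻¹ * k⁻¹ := by
    have : y⁻¹ * ⁅y, g⁆ = y⁻¹ * ⁅y, k⁆ := by rw [h]
    simpa [commutatorElement_def, mul_assoc] using this
  have h2 : g * y * g⁻¹ = k * y * k⁻¹ := by
    have := congrArg (fun x => x⁻¹) h1
    simpa [mul_assoc] using this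
  calc y * (g⁻¹ * k) = g⁻¹ * (g * y * g⁻¹) * k := by group
    _ = g⁻¹ * (k * y * k⁻¹) * k := by rw [h2]
    _ = g⁻¹ * k * y := by group

theorem index_le (h : Hyp T W) : W.index ≤ 8 := by
  have := h.fin
  obtain ⟨y, hy, hy2⟩ := h.exists_y
  obtain ⟨u, hu, hu1⟩ := h.exists_u
  have hle := RuBase.index_le_of_fun W (β := ↥(Zu T 2) × ↥(Zu T 1))
    (fun g => (⟨⁅y, g⁆, comm_mem hy g⟩, ⟨⁅u, g⁆, comm_mem hu g⟩)) (by
      intro a b hab
      have h1 : ⁅y, a⁆ = ⁅y, b⁆ := congrArg (fun p => (p.1 : T)) hab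
      have h2 : ⁅u, a⁆ = ⁅u, b⁆ := congrArg (fun p => (p.2 : T)) hab
      exact h.cent_Z3 hy hy2 (conj_eq_of_comm_eq h1)
        (fun z hz => h.cent_Z2 hu hu1 (conj_eq_of_comm_eq h2) hz))
  rwa [Nat.card_prod, h.cardZ 2 (by norm_num), h.cardZ 1 (by norm_num)] at hle

/-- `Φ(W)` as a subgroup of `T`. -/
def P (W : Subgroup T) : Subgroup T := (frattini ↥W).map W.subtype

theorem P_le (W : Subgroup T) : P W ≤ W := Subgroup.map_subtype_le _

theorem mem_P {x : T} (hx : x ∈ W) : x ∈ P W ↔ (⟨x, hx⟩ : ↥W) ∈ frattini ↥W := by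
  unfold P
  rw [Subgroup.mem_map]
  constructor
  · rintro ⟨w, hw, rfl⟩
    exact hw
  · intro hx'
    exact ⟨_, hx', rfl⟩

theorem normalP (h : Hyp T W) : (P W).Normal := by
  have := h.normalW
  unfold P
  infer_instance

theorem card_P (_h : Hyp T W) : Nat.card ↥(P W) = Nat.card ↥(frattini ↥W) :=
  Nat.card_congr (Subgroup.equivMapOfInjective _ _ W.subtype_injective).symm.toEquiv

theorem sq_mem_P (h : Hyp T W) {x : T} (hx : x ∈ W) : x ^ 2 ∈ P W := by
  have := h.fin
  have : Fact (Nat.Prime 2) := ⟨Nat.prime_two⟩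
  rw [mem_P (pow_mem hx 2)]
  exact Lib.FrattiniPGroup.pow_mem_frattini (h.two.to_subgroup W) ⟨x, hx⟩

theorem comm_mem_P (h : Hyp T W) {x y : T} (hx : x ∈ W) (hy : y ∈ W) : ⁅x, y⁆ ∈ P W := by
  have := h.fin
  have : Fact (Nat.Prime 2) := ⟨Nat.prime_two⟩
  exact ⟨⁅(⟨x, hx⟩ : ↥W), (⟨y, hy⟩ : ↥W)⁆,
    Lib.FrattiniPGroup.commutator_mem_frattini (h.two.to_subgroup W) ⟨x, hx⟩ ⟨y, hy⟩, rfl⟩

/-- `P = Z_k` for some `k ≤ 3`. -/
theorem exists_k (h : Hyp T W) : ∃ k ≤ 3, P W = Zu T k := by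
  have := h.fin
  have hPn := h.normalP
  have : Fact (Nat.Prime 2) := ⟨Nat.prime_two⟩
  have hle8 : Nat.card ↥(P W) ≤ 8 := by rw [h.card_P]; exact h.hc
  obtain ⟨k, hk⟩ := IsPGroup.iff_card.1 (h.two.to_subgroup (P W))
  have hk3 : k ≤ 3 := by
    by_contra hcon
    push Not at hcon
    have : 2 ^ 4 ≤ 2 ^ k := Nat.pow_le_pow_right (by norm_num) hcon
    omega
  refine ⟨k, hk3, ?_⟩
  have hPk : P W ≤ Zu T k := by
    rcases RuBase.le_or_card h.two (P W) k with h1 | h1
    · exact h1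
    · have h2 : P W ⊓ Zu T k = P W :=
        Subgroup.eq_of_le_of_card_ge inf_le_left (by rw [hk]; exact h1)
      exact inf_eq_left.1 h2
  exact Subgroup.eq_of_le_of_card_ge hPk (by rw [hk, h.cardZ k (by omega)])

/-- centre of `T/Z_k`. -/
theorem card_center_quot (h : Hyp T W) {k : ℕ} (hk : k ≤ 3) :
    Nat.card ↥(center (T ⧸ Zu T k)) = 2 := by
  have := h.fin
  have h1 : Zu T (k + 1) = (center (T ⧸ Zu T k)).comap (QuotientGroup.mk' (Zu T k)) :=
    Subgroup.upperCentralSeriesStep_eq_comap_center (Zu T k)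
  have h2 : (center (T ⧸ Zu T k)).index = (Zu T (k + 1)).index := by
    rw [h1]
    exact (Subgroup.index_comap_of_surjective _ (QuotientGroup.mk'_surjective _)).symm
  have h3 := (Zu T (k + 1)).card_mul_index
  have h4 := (center (T ⧸ Zu T k)).card_mul_index
  have h5 := (Zu T k).card_mul_index
  have h6 : (Zu T k).index = Nat.card (T ⧸ Zu T k) := rfl
  rw [h6, ← h4, h2, h.cardZ k (by omega)] at h5
  rw [h.cardZ (k + 1) (by omega), ← h5] at h3
  have h7 : 0 < (Zu T (k + 1)).index := Nat.pos_of_ne_zero (Subgroup.index_ne_zero_of_finite)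
  have h8 : 0 < 2 ^ k := by positivity
  rw [← mul_assoc] at h3
  have h9 := Nat.eq_of_mul_eq_mul_right h7 h3
  rw [pow_succ] at h9
  exact (Nat.eq_of_mul_eq_mul_left h8 h9).symm

theorem quot_facts (h : Hyp T W) {k : ℕ} (hk : k ≤ 3) (hP : P W = Zu T k) :
    (∀ x ∈ W.map (QuotientGroup.mk' (Zu T k)), x ^ 2 = 1) ∧
    (∀ x ∈ W.map (QuotientGroup.mk' (Zu T k)), ∀ y ∈ W.map (QuotientGroup.mk' (Zu T k)),
      x * y = y * x) ∧
    (W.map (QuotientGroup.mk' (Zu T k))).index = W.index ∧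
    Nat.card ↥(W.map (QuotientGroup.mk' (Zu T k))) * 2 ^ k = Nat.card ↥W := by
  have := h.fin
  refine ⟨?_, ?_, ?_, ?_⟩
  · rintro _ ⟨w, hw, rfl⟩
    have h1 := h.sq_mem_P hw
    rw [hP] at h1
    rw [← map_pow]
    exact (QuotientGroup.eq_one_iff _).2 h1
  · rintro _ ⟨w, hw, rfl⟩ _ ⟨v, hv, rfl⟩
    have h1 := h.comm_mem_P hw hv
    rw [hP] at h1
    have h2 : QuotientGroup.mk' (Zu T k) ⁅w, v⁆ = 1 := (QuotientGroup.eq_one_iff _).2 h1
    rw [map_commutatorElement, commutatorElement_eq_one_iff_mul_comm] at h2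
    exact h2
  · apply Subgroup.index_map_eq
    · exact QuotientGroup.mk'_surjective _
    · rw [QuotientGroup.ker_mk', ← hP]
      exact P_le W
  · have hidx : (W.map (QuotientGroup.mk' (Zu T k))).index = W.index := by
      apply Subgroup.index_map_eq
      · exact QuotientGroup.mk'_surjective _
      · rw [QuotientGroup.ker_mk', ← hP]
        exact P_le W
    have h1 := (W.map (QuotientGroup.mk' (Zu T k))).card_mul_index
    have h2 := W.card_mul_index
    have h3 := (Zu T k).card_mul_index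
    have h6 : (Zu T k).index = Nat.card (T ⧸ Zu T k) := rfl
    rw [h6, ← h1, hidx, h.cardZ k (by omega)] at h3
    have h7 : 0 < W.index := Nat.pos_of_ne_zero (Subgroup.index_ne_zero_of_finite)
    apply Nat.eq_of_mul_eq_mul_right h7
    rw [h2, ← h3]
    ring

theorem card_W_le (h : Hyp T W) {k : ℕ} (hk : k ≤ 3) (hP : P W = Zu T k) :
    Nat.card ↥W ≤ 2 ^ W.index * 2 ^ k := by
  have := h.fin
  have hWn := h.normalW
  obtain ⟨h1, h2, h3, h4⟩ := h.quot_facts hk hP
  have : (W.map (QuotientGroup.mk' (Zu T k))).Normal :=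
    Subgroup.Normal.map hWn _ (QuotientGroup.mk'_surjective _)
  have h5 := RuBase.card_le_two_pow (h.two.to_quotient (Zu T k))
    (W.map (QuotientGroup.mk' (Zu T k))) (W.map (QuotientGroup.mk' (Zu T k))) h1 h2
    (by
      calc _ ≤ Nat.card ↥(center (T ⧸ Zu T k)) := Subgroup.card_le_of_le inf_le_right
        _ = 2 := h.card_center_quot hk
        _ ≤ 2 := le_rfl)
  rw [h3] at h5
  rw [← h4]
  exact Nat.mul_le_mul_right _ h5

/-- The orders. -/
theorem orders (h : Hyp T W) : W.index = 8 ∧ P W = Zu T 3 ∧ Nat.card T = 2 ^ 14 ∧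
    Nat.card ↥W = 2 ^ 11 := by
  have := h.fin
  obtain ⟨k, hk, hP⟩ := h.exists_k
  have h1 := h.card_W_le hk hP
  have h2 := h.index_le
  have h3 := W.card_mul_index
  have h4 := h.ha
  generalize hm : W.index = m at *
  generalize hw : Nat.card ↥W = w at *
  have hk8 : 2 ^ k ≤ 8 := by
    calc 2 ^ k ≤ 2 ^ 3 := Nat.pow_le_pow_right (by norm_num) hk
      _ = 8 := by norm_num
  have hm8 : m = 8 := by
    by_contra hne
    have hm7 : m ≤ 7 := by omega
    have h5 : 2 ^ m ≤ 2 ^ 7 := Nat.pow_le_pow_right (by norm_num) hm7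
    have h6 : w ≤ 2 ^ 7 * 8 := h1.trans (Nat.mul_le_mul h5 hk8)
    have h7 : w * m ≤ 2 ^ 7 * 8 * 7 := Nat.mul_le_mul h6 hm7
    rw [← h3] at h4
    norm_num at h7 h4
    omega
  subst hm8
  have hk3 : k = 3 := by
    by_contra hne
    have hk2 : k ≤ 2 := by omega
    have h5 : 2 ^ k ≤ 4 := by
      calc 2 ^ k ≤ 2 ^ 2 := Nat.pow_le_pow_right (by norm_num) hk2
        _ = 4 := by norm_num
    have h6 : w ≤ 2 ^ 8 * 4 := h1.trans (Nat.mul_le_mul_left _ h5)
    rw [← h3] at h4
    norm_num at h6 h4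
    omega
  subst hk3
  have hw11 : w = 2 ^ 11 := by
    rw [← h3] at h4
    norm_num at h1 h4 ⊢
    omega
  refine ⟨rfl, hP, ?_, hw11⟩
  rw [← h3, hw11]
  norm_num

theorem Z3_le_W (h : Hyp T W) : Zu T 3 ≤ W := by
  rw [← h.orders.2.1]; exact P_le W

theorem comm_W_mem (h : Hyp T W) {x y : T} (hx : x ∈ W) (hy : y ∈ W) : ⁅x, y⁆ ∈ Zu T 3 := by
  rw [← h.orders.2.1]; exact h.comm_mem_P hx hy

theorem sq_W_mem (h : Hyp T W) {x : T} (hx : x ∈ W) : x ^ 2 ∈ Zu T 3 := by
  rw [← h.orders.2.1]; exact h.sq_mem_P hx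

/-- Hypothesis (d): a subgroup of index at most 8 in `W` whose squares are in the normal
subgroup `N` of `W`: then `Φ(W) ≤ N`. -/
theorem frattini_le (h : Hyp T W) (Y N : Subgroup ↥W) [hN : N.Normal] (hY : Y.index ≤ 8)
    (hsq : ∀ y ∈ Y, y ^ 2 ∈ N) : frattini ↥W ≤ N := by
  have := h.fin
  have : Fact (Nat.Prime 2) := ⟨Nat.prime_two⟩
  have hYp : IsPGroup 2 ↥Y := (h.two.to_subgroup W).to_subgroup Y
  have h1 : ∀ M : Subgroup ↥Y, IsCoatom M → frattini ↥W ≤ M.map Y.subtype := by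
    intro M hM
    apply h.hd
    rw [Subgroup.index_map_subtype, Lib.FrattiniPGroup.index_of_coatom hYp hM]
    omega
  have h2 : frattini ↥W ≤ Y := h.hd Y (by omega)
  have h3 : frattini ↥Y ≤ N.subgroupOf Y := by
    apply Lib.FrattiniBasic.frattini_le_of_elementary (p := 2)
    · rw [_root_.commutator_def, Subgroup.commutator_le]
      intro a _ b _
      rw [Subgroup.mem_subgroupOf]
      have key : ∀ c : ↥Y, QuotientGroup.mk' N (c : ↥W) * QuotientGroup.mk' N (c : ↥W) = 1 := by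
        intro c
        have := hsq c c.2
        rw [pow_two] at this
        rw [← map_mul]
        exact (QuotientGroup.eq_one_iff _).2 this
      have ea := key a
      have eb := key b
      have eab := key (a * b)
      rw [Subgroup.coe_mul, map_mul] at eab
      rw [← QuotientGroup.eq_one_iff]
      show QuotientGroup.mk' N (⁅(a : ↥W), (b : ↥W)⁆) = 1
      rw [map_commutatorElement, commutatorElement_eq_one_iff_mul_comm]
      set x := QuotientGroup.mk' N (a : ↥W)
      set y := QuotientGroup.mk' N (b : ↥W)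
      calc x * y = x * (x * y * (x * y)) * y := by rw [eab]; group
        _ = (x * x) * (y * x) * (y * y) := by group
        _ = y * x := by rw [ea, eb]; group
    · intro y
      rw [Subgroup.mem_subgroupOf]
      exact hsq y y.2
  intro x hx
  have hxY : x ∈ Y := h2 hx
  have h4 : (⟨x, hxY⟩ : ↥Y) ∈ frattini ↥Y := by
    rw [frattini, Order.radical]
    simp only [Subgroup.mem_iInf, Set.mem_ofPred_eq]
    intro M hM
    obtain ⟨m, hm, hmx⟩ := Subgroup.mem_map.1 (h1 M hM hx)
    have : m = ⟨x, hxY⟩ := Subtype.ext hmx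
    rwa [← this]
  have h5 := h3 h4
  rwa [Subgroup.mem_subgroupOf] at h5

end Hyp

end Cfsg.Agent.H303.RuMain
end

-- part: H303/RuDih
section
set_option autoImplicit false
set_option linter.style.haveILetI false
set_option linter.unnecessarySimpa false

/-! 2-groups of "Rudvalis type": `W' = Z_3`, elementary abelian, and `T/W ≅ D_8`. -/

namespace Cfsg.Agent.H303.RuMain

open Subgroup
open scoped commutatorElement

local notation "Zu" => Subgroup.upperCentralSeries

variable {T : Type*} [Group T]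

namespace Hyp

variable {W : Subgroup T}

theorem comm_Z3 (h : Hyp T W) {x y : T} (hx : x ∈ Zu T 3) (hy : y ∈ Zu T 3) :
    x * y = y * x := h.mem_W.1 (h.Z3_le_W hy) x hx

theorem comm_Z3_W (h : Hyp T W) {x y : T} (hx : x ∈ Zu T 3) (hy : y ∈ W) :
    x * y = y * x := h.mem_W.1 hy x hx

/-- Squares modulo `Z_2` -/
theorem sq_mul (_h : Hyp T W) {x y : T} :
    (x * y) ^ 2 = x ^ 2 * (⁅x⁻¹, y⁆ * y ^ 2) := by
  simp only [commutatorElement_def, pow_two]
  group

theorem commutator_eq (h : Hyp T W) : (commutator ↥W).map W.subtype = Zu T 3 := by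
  have := h.fin
  have hWn := h.normalW
  have : Fact (Nat.Prime 2) := ⟨Nat.prime_two⟩
  set C := (commutator ↥W).map W.subtype with hC
  have hCn : C.Normal := by rw [hC]; infer_instance
  have hcC : ∀ x ∈ W, ∀ y ∈ W, ⁅x, y⁆ ∈ C := by
    intro x hx y hy
    rw [hC]
    exact ⟨⁅(⟨x, hx⟩ : ↥W), (⟨y, hy⟩ : ↥W)⁆,
      Subgroup.commutator_mem_commutator (Subgroup.mem_top _) (Subgroup.mem_top _), rfl⟩
  have hC3 : C ≤ Zu T 3 := by
    rw [hC, Subgroup.map_le_iff_le_comap, _root_.commutator_def, Subgroup.commutator_le]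
    intro a _ b _
    exact h.comm_W_mem a.2 b.2
  by_contra hne
  -- `C ≤ Z_2`
  have hC2 : C ≤ Zu T 2 := by
    rcases RuBase.le_or_card h.two C 2 with h1 | h1
    · exact h1
    · have hlt : C < Zu T 3 := lt_of_le_of_ne hC3 hne
      have h2 : Nat.card ↥C < 8 := by
        have h3 := Subgroup.card_le_of_le hC3
        rw [h.cardZ 3 (by norm_num)] at h3
        refine lt_of_le_of_ne (by simpa using h3) ?_
        intro h4
        exact hne (Subgroup.eq_of_le_of_card_ge hC3 (by rw [h.cardZ 3 (by norm_num), h4]; norm_num))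
      obtain ⟨k, hk⟩ := IsPGroup.iff_card.1 (h.two.to_subgroup C)
      have hk2 : k ≤ 2 := by
        by_contra hcon
        push Not at hcon
        have : 2 ^ 3 ≤ 2 ^ k := Nat.pow_le_pow_right (by norm_num) hcon
        omega
      have h4 : Nat.card ↥C ≤ 2 ^ 2 := by
        rw [hk]; exact Nat.pow_le_pow_right (by norm_num) hk2
      have h5 : C ⊓ Zu T 2 = C := Subgroup.eq_of_le_of_card_ge inf_le_left (h4.trans h1)
      exact inf_eq_left.1 h5
  -- the subgroup of elements with square in `Z_2`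
  have hsq : ∀ x ∈ W, ∀ y ∈ W, (x * y) ^ 2 ∈ Zu T 2 ↔ (x ^ 2 ∈ Zu T 2 ↔ y ^ 2 ∈ Zu T 2) := by
    intro x hx y hy
    have h1 : ⁅x⁻¹, y⁆ ∈ Zu T 2 := hC2 (hcC _ (inv_mem hx) _ hy)
    rw [h.sq_mul, h.mul3 (h.sq_W_mem hx) (mul_mem (le32 h1) (h.sq_W_mem hy)),
      Subgroup.mul_mem_cancel_left _ h1]
  let Y : Subgroup ↥W :=
    { carrier := {w | (w : T) ^ 2 ∈ Zu T 2}
      one_mem' := by simp
      mul_mem' := by
        intro a b ha hb
        show ((a : T) * b) ^ 2 ∈ Zu T 2
        rw [hsq _ a.2 _ b.2]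
        exact iff_of_true ha hb
      inv_mem' := by
        intro a ha
        show ((a : T)⁻¹) ^ 2 ∈ Zu T 2
        rw [inv_pow]
        exact inv_mem ha }
  have hYi : Y.index ≤ 8 := by
    classical
    have := RuBase.index_le_of_fun Y (β := Bool) (fun w => decide ((w : T) ^ 2 ∈ Zu T 2)) (by
      intro a b hab
      have hab' : ((a : T) ^ 2 ∈ Zu T 2) ↔ ((b : T) ^ 2 ∈ Zu T 2) := by
        simpa using hab
      show ((a : T)⁻¹ * b) ^ 2 ∈ Zu T 2
      rw [hsq _ (inv_mem a.2) _ b.2, inv_pow, inv_mem_iff]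
      exact hab')
    simp at this
    omega
  have hle := h.frattini_le Y ((Zu T 2).subgroupOf W) hYi (fun y hy => by
    rw [Subgroup.mem_subgroupOf]; exact hy)
  obtain ⟨y, hy, hy2⟩ := h.exists_y
  apply hy2
  have hyP : y ∈ P W := by rw [h.orders.2.1]; exact hy
  have h1 := (mem_P (h.Z3_le_W hy)).1 hyP
  have h2 := hle h1
  rwa [Subgroup.mem_subgroupOf] at h2

/-- `Z_3` is elementary abelian. -/
theorem sq_Z3 (h : Hyp T W) : ∀ z ∈ Zu T 3, z ^ 2 = 1 := by
  have hle : (commutator ↥W).map W.subtype ≤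
      { carrier := {z : T | z ∈ Zu T 3 ∧ z ^ 2 = 1}
        one_mem' := ⟨one_mem _, by simp⟩
        mul_mem' := by
          rintro a b ⟨ha, ha'⟩ ⟨hb, hb'⟩
          refine ⟨mul_mem ha hb, ?_⟩
          rw [(show Commute a b from h.comm_Z3 ha hb).mul_pow, ha', hb', one_mul]
        inv_mem' := by
          rintro a ⟨ha, ha'⟩
          exact ⟨inv_mem ha, by rw [inv_pow, ha', inv_one]⟩ } := by
    rw [Subgroup.map_le_iff_le_comap, _root_.commutator_def, Subgroup.commutator_le]
    intro a _ b _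
    show (W.subtype ⁅a, b⁆) ∈ Zu T 3 ∧ (W.subtype ⁅a, b⁆) ^ 2 = 1
    have hc : ⁅(a : T), (b : T)⁆ ∈ Zu T 3 := h.comm_W_mem a.2 b.2
    refine ⟨hc, ?_⟩
    show ⁅(a : T), (b : T)⁆ ^ 2 = 1
    have h1 : ⁅(a : T) ^ 2, (b : T)⁆ = 1 := by
      rw [commutatorElement_eq_one_iff_mul_comm]
      exact h.comm_Z3_W (h.sq_W_mem a.2) b.2
    have key : ∀ x y : T, ⁅x ^ 2, y⁆ = (x * ⁅x, y⁆) * x⁻¹ * ⁅x, y⁆ := by
      intro x y
      simp only [commutatorElement_def, pow_two]
      group
    rw [key, ← h.comm_Z3_W hc a.2] at h1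
    rw [pow_two]
    rw [mul_inv_cancel_right] at h1
    exact h1
  intro z hz
  rw [← h.commutator_eq] at hz
  exact (hle hz).2

theorem inv_Z3 (h : Hyp T W) {z : T} (hz : z ∈ Zu T 3) : z⁻¹ = z := by
  have := h.sq_Z3 z hz
  rw [pow_two] at this
  exact inv_eq_of_mul_eq_one_left this

/-- `A = C_T(Z_2)`. -/
def A (T : Type*) [Group T] : Subgroup T := Subgroup.centralizer ((Zu T 2 : Subgroup T) : Set T)

theorem mem_A {t : T} : t ∈ A T ↔ ∀ z ∈ Zu T 2, z * t = t * z := by
  unfold A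
  rw [Subgroup.mem_centralizer_iff]
  rfl

theorem W_le_A (h : Hyp T W) : W ≤ A T := by
  intro t ht
  rw [mem_A]
  intro z hz
  exact h.mem_W.1 ht z (le32 hz)

theorem comm_mem' {j : ℕ} {x : T} (hx : x ∈ Zu T (j + 1)) (t : T) : ⁅t, x⁆ ∈ Zu T j := by
  rw [← commutatorElement_inv]
  exact inv_mem (comm_mem hx t)

theorem sq_A (h : Hyp T W) {a : T} (ha : a ∈ A T) : a ^ 2 ∈ W := by
  obtain ⟨y, hy, hy2⟩ := h.exists_y
  have hA2 : ∀ z ∈ Zu T 2, z * a ^ 2 = a ^ 2 * z := by
    intro z hz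
    have h1 := mem_A.1 ha z hz
    exact (show Commute z a from h1).pow_right 2
  refine h.cent_Z3 hy hy2 ?_ hA2
  have hc : ⁅a, y⁆ ∈ Zu T 2 := comm_mem' hy a
  have e1 : a * y = ⁅a, y⁆ * y * a := by rw [commutatorElement_def]; group
  have e2 : ⁅a, y⁆ * a = a * ⁅a, y⁆ := mem_A.1 ha _ hc
  have e3 : ⁅a, y⁆ * ⁅a, y⁆ = 1 := by
    have := h.sq_Z3 _ (le32 hc)
    rwa [pow_two] at this
  symm
  calc a ^ 2 * y = a * (a * y) := by rw [pow_two]; group
    _ = (a * ⁅a, y⁆) * y * a := by rw [e1]; group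
    _ = ⁅a, y⁆ * (a * y) * a := by rw [← e2]; group
    _ = (⁅a, y⁆ * ⁅a, y⁆) * y * (a * a) := by rw [e1]; group
    _ = y * a ^ 2 := by rw [e3, pow_two]; group

theorem index_A_le (h : Hyp T W) : (A T).index ≤ 2 := by
  have := h.fin
  obtain ⟨u, hu, hu1⟩ := h.exists_u
  have hle := RuBase.index_le_of_fun (A T) (β := ↥(Zu T 1))
    (fun g => ⟨⁅u, g⁆, comm_mem hu g⟩) (by
      intro a b hab
      have h2 : ⁅u, a⁆ = ⁅u, b⁆ := congrArg Subtype.val hab
      rw [mem_A]
      exact fun z hz => h.cent_Z2 hu hu1 (conj_eq_of_comm_eq h2) hz)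
  rwa [h.cardZ 1 (by norm_num)] at hle

theorem index_WA_le (h : Hyp T W) : (W.subgroupOf (A T)).index ≤ 4 := by
  have := h.fin
  obtain ⟨y, hy, hy2⟩ := h.exists_y
  have hle := RuBase.index_le_of_fun (W.subgroupOf (A T)) (β := ↥(Zu T 2))
    (fun g => ⟨⁅y, (g : T)⁆, comm_mem hy g⟩) (by
      intro a b hab
      have h2 : ⁅y, (a : T)⁆ = ⁅y, (b : T)⁆ := congrArg Subtype.val hab
      rw [Subgroup.mem_subgroupOf]
      exact h.cent_Z3 hy hy2 (conj_eq_of_comm_eq h2) (mem_A.1 (a⁻¹ * b).2))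
  rwa [h.cardZ 2 (by norm_num)] at hle

theorem index_A (h : Hyp T W) : (A T).index = 2 ∧ (W.subgroupOf (A T)).index = 4 := by
  have h1 : W.relIndex (A T) * (A T).index = W.index := Subgroup.relIndex_mul_index h.W_le_A
  rw [h.orders.1] at h1
  have h2 := h.index_A_le
  have h3 := h.index_WA_le
  have h4 : W.relIndex (A T) = (W.subgroupOf (A T)).index := rfl
  rw [h4] at h1
  generalize (A T).index = m at *
  generalize (W.subgroupOf (A T)).index = n at *
  interval_cases m <;> omega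

theorem exists_a (h : Hyp T W) : ∃ a ∈ A T, ∃ y ∈ Zu T 3, ⁅a, y⁆ ∉ Zu T 1 := by
  have := h.fin
  obtain ⟨y, hy, hy2⟩ := h.exists_y
  by_contra hcon
  push Not at hcon
  have hle := RuBase.index_le_of_fun (W.subgroupOf (A T)) (β := ↥(Zu T 1))
    (fun g => ⟨⁅(g : T), y⁆⁻¹, inv_mem (hcon g g.2 y hy)⟩) (by
      intro a b hab
      have h2 : ⁅(a : T), y⁆⁻¹ = ⁅(b : T), y⁆⁻¹ := congrArg Subtype.val hab
      rw [commutatorElement_inv, commutatorElement_inv] at h2
      rw [Subgroup.mem_subgroupOf]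
      exact h.cent_Z3 hy hy2 (conj_eq_of_comm_eq h2) (mem_A.1 (a⁻¹ * b).2))
  rw [h.cardZ 1 (by norm_num), h.index_A.2] at hle
  norm_num at hle

theorem not_comm (h : Hyp T W) : ∃ a g : T, ⁅a, g⁆ ∉ W := by
  obtain ⟨a, ha, y, hy, hay⟩ := h.exists_a
  have : ∃ g, g ∉ A T := by
    by_contra hcon
    push Not at hcon
    have : A T = ⊤ := by
      rw [eq_top_iff]; exact fun g _ => hcon g
    have h2 := h.index_A.1
    rw [this, Subgroup.index_top] at h2
    omega
  obtain ⟨g, hg⟩ := this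
  refine ⟨a, g, fun hw => hg ?_⟩
  have hu' : ⁅a, y⁆ ∈ Zu T 2 := comm_mem' hy a
  have hv : ⁅g, y⁆ ∈ Zu T 2 := comm_mem' hy g
  set u := ⁅a, y⁆ with hu
  set v := ⁅g, y⁆ with hv'
  have e1 : a * y * a⁻¹ = u * y := by rw [hu, commutatorElement_def]; group
  have e2 : g * y * g⁻¹ = v * y := by rw [hv', commutatorElement_def]; group
  have e3 : a * v * a⁻¹ = v := by
    have := mem_A.1 ha v hv
    rw [← this]; group
  have hgu : g * u * g⁻¹ ∈ Zu T 3 := by
    have : (Zu T 3).Normal := inferInstance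
    exact this.conj_mem _ (le32 hu') g
  -- `w = [a,g]` centralises `g a y a⁻¹ g⁻¹`
  have e4 : (a * g) * y * (a * g)⁻¹ = (g * a) * y * (g * a)⁻¹ := by
    have hz : (g * a) * y * (g * a)⁻¹ ∈ Zu T 3 := by
      have : (Zu T 3).Normal := inferInstance
      exact this.conj_mem _ hy _
    have h5 := h.comm_Z3_W hz hw
    calc (a * g) * y * (a * g)⁻¹ = ⁅a, g⁆ * ((g * a) * y * (g * a)⁻¹) * ⁅a, g⁆⁻¹ := by
          rw [commutatorElement_def]; group
      _ = (g * a) * y * (g * a)⁻¹ := by rw [← h5]; group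
  have e5 : (a * g) * y * (a * g)⁻¹ = v * (u * y) := by
    calc (a * g) * y * (a * g)⁻¹ = a * (g * y * g⁻¹) * a⁻¹ := by group
      _ = (a * v * a⁻¹) * (a * y * a⁻¹) := by rw [e2]; group
      _ = v * (u * y) := by rw [e3, e1]
  have e6 : (g * a) * y * (g * a)⁻¹ = (g * u * g⁻¹) * (v * y) := by
    calc (g * a) * y * (g * a)⁻¹ = g * (a * y * a⁻¹) * g⁻¹ := by group
      _ = (g * u * g⁻¹) * (g * y * g⁻¹) := by rw [e1]; group
      _ = (g * u * g⁻¹) * (v * y) := by rw [e2]
  rw [e5, e6] at e4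
  have e7 : v * u = (g * u * g⁻¹) * v := by
    have := congrArg (fun x => x * y⁻¹) e4
    simpa [mul_assoc] using this
  have e8 : u = g * u * g⁻¹ := by
    rw [← h.comm_Z3 (le32 hv) hgu] at e7
    exact mul_left_cancel e7
  have e9 : u * g = g * u := by
    calc u * g = (g * u * g⁻¹) * g := by rw [← e8]
      _ = g * u := by group
  rw [mem_A]
  exact fun z hz => h.cent_Z2 hu' hay e9 hz

theorem dihedral (h : Hyp T W) (hn : W.Normal) : Nonempty (T ⧸ W ≃* DihedralGroup 4) := by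
  have := h.fin
  have hcard : Nat.card (T ⧸ W) = 8 := h.orders.1
  have hnc : ¬ IsMulCommutative (T ⧸ W) := by
    intro hc
    obtain ⟨a, g, hag⟩ := h.not_comm
    apply hag
    rw [← QuotientGroup.eq_one_iff]
    show QuotientGroup.mk' W ⁅a, g⁆ = 1
    rw [map_commutatorElement, commutatorElement_eq_one_iff_mul_comm]
    exact hc.is_comm.comm _ _
  rcases SmallSimple.OrderEight.dihedral_or_quaternion_of_card_eight hcard hnc with h1 | ⟨⟨e⟩⟩
  · exact h1
  · exfalso
    -- the four-group `A/W`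
    have hA : Nat.card ↥((A T).map (QuotientGroup.mk' W)) = 4 := by
      have h1 := ((A T).map (QuotientGroup.mk' W)).card_mul_index
      have h2 : ((A T).map (QuotientGroup.mk' W)).index = (A T).index := by
        apply Subgroup.index_map_eq
        · exact QuotientGroup.mk'_surjective _
        · rw [QuotientGroup.ker_mk']; exact h.W_le_A
      rw [h2, h.index_A.1, hcard] at h1
      omega
    have hsq : ∀ x ∈ (A T).map (QuotientGroup.mk' W), e x = 1 ∨ e x = QuaternionGroup.a 2 := by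
      rintro _ ⟨a, ha, rfl⟩
      have h1 : (QuotientGroup.mk' W a) * (QuotientGroup.mk' W a) = 1 := by
        rw [← map_mul, ← pow_two]
        exact (QuotientGroup.eq_one_iff _).2 (h.sq_A ha)
      have h2 : e (QuotientGroup.mk' W a) * e (QuotientGroup.mk' W a) = 1 := by
        rw [← map_mul, h1, map_one]
      have h3 : ∀ q : QuaternionGroup 2, q * q = 1 → q = 1 ∨ q = QuaternionGroup.a 2 := by
        decide
      exact h3 _ h2
    have hle : Nat.card ↥((A T).map (QuotientGroup.mk' W)) ≤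
        Nat.card ↥({1, QuaternionGroup.a 2} : Set (QuaternionGroup 2)) := by
      apply Nat.card_le_card_of_injective
        (fun x : ↥((A T).map (QuotientGroup.mk' W)) => (⟨e x, by
          rcases hsq x x.2 with h1 | h1
          · left; exact h1
          · right; exact h1⟩ : ↥({1, QuaternionGroup.a 2} : Set (QuaternionGroup 2))))
      intro x y hxy
      have := congrArg Subtype.val hxy
      exact Subtype.ext (e.injective this)
    rw [hA, Nat.card_coe_set_eq] at hle
    have h5 : ({1, QuaternionGroup.a 2} : Set (QuaternionGroup 2)).ncard ≤ 2 :=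
      Set.ncard_insert_le _ _ |>.trans (by rw [Set.ncard_singleton])
    omega

end Hyp

end Cfsg.Agent.H303.RuMain
end
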